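import Cfsg.Agent.H466.O8R.GenTop
import Cfsg.Agent.H292.O8R.OB

/-!
# S3691, `PΩ⁺₈(q)`, DATA-OM: `M`, `s`, `g`, links, generation (helper466)

`a i = u i + v i`, `b i = u i - v i`; `M = Om Q (pp Q ![w, a 0, b 0])`.
-/

set_option autoImplicit false

namespace Cfsg.Agent.H466.O8R

open Module QuadraticMap Cfsg.Agent.LieClassical.OrthCore
open Cfsg.Agent.H36.Om7 Cfsg.Agent.H292.O8R

variable {F V : Type*} [Field F] [AddCommGroup V] [Module F V] {Q : QuadraticForm F V}

section defs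

variable (u v : Fin 3 → V) (w : V)

/-- the vectors of norm one -/
def av (i : Fin 3) : V := u i + v i

/-- the vectors of norm minus one -/
def bv (i : Fin 3) : V := u i - v i

/-- `w, a i, b j` -/
def tr3 (i j : Fin 3) : Fin 3 → V := ![w, av u v i, bv u v j]

/-- the orthogonal basis `w, a i, b i` -/
def ov : Unit ⊕ (Fin 3 ⊕ Fin 3) → V := Sum.elim (fun _ => w) (Sum.elim (av u v) (bv u v))

/-- the norms -/
def on (F : Type*) [Field F] : Unit ⊕ (Fin 3 ⊕ Fin 3) → F := Sum.elim (fun _ => 1) (Sum.elim (fun _ => 1) (fun _ => -1))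

/-- the permutation `a k ↦ a (k + i)`, `b k ↦ b (k + j)` -/
def sg (i j : Fin 3) : Equiv.Perm (Unit ⊕ (Fin 3 ⊕ Fin 3)) :=
  Equiv.sumCongr (Equiv.refl _) (Equiv.sumCongr (Equiv.addRight i) (Equiv.addRight j))

end defs

variable {u v : Fin 3 → V} {w : V}

theorem ov_norm (fr : Fr Q u v w) (i : Unit ⊕ (Fin 3 ⊕ Fin 3)) : Q (ov u v w i) = on F i := by
  rcases i with i | i | i
  · exact fr.w1
  · show Q (u i + v i) = 1
    rw [Q_add, fr.u0, fr.v0, fr.uv, if_pos rfl]
    simp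
  · show Q (u i - v i) = -1
    rw [sub_eq_add_neg, Q_add, QuadraticMap.map_neg, fr.u0, fr.v0, polar_neg_right, fr.uv, if_pos rfl]
    simp

theorem ov_orth (fr : Fr Q u v w) (i j : Unit ⊕ (Fin 3 ⊕ Fin 3)) (h : i ≠ j) : polar Q (ov u v w i) (ov u v w j) = 0 := by
  have vu : ∀ i j, polar Q (v i) (u j) = if i = j then 1 else 0 := fun i j => by
    rw [polar_comm, fr.uv]
    simp only [eq_comm]
  have wu : ∀ i, polar Q w (u i) = 0 := fun i => by rw [polar_comm]; exact fr.uw i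
  have wv : ∀ i, polar Q w (v i) = 0 := fun i => by rw [polar_comm]; exact fr.vw i
  rcases i with i | i | i <;> rcases j with j | j | j
  · exact absurd rfl h
  · show polar Q w (u j + v j) = 0
    rw [polar_add_right, wu, wv, add_zero]
  · show polar Q w (u j - v j) = 0
    rw [polar_sub_right, wu, wv, sub_zero]
  · show polar Q (u i + v i) w = 0
    rw [polar_add_left, fr.uw, fr.vw, add_zero]
  · have hij : i ≠ j := fun h1 => h (by rw [h1])
    show polar Q (u i + v i) (u j + v j) = 0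
    rw [polar_add_left, polar_add_right, polar_add_right, fr.uu, fr.vv, fr.uv, vu, if_neg hij]
    simp
  · show polar Q (u i + v i) (u j - v j) = 0
    rw [polar_add_left, polar_sub_right, polar_sub_right, fr.uu, fr.vv, fr.uv, vu]
    ring
  · show polar Q (u i - v i) w = 0
    rw [polar_sub_left, fr.uw, fr.vw, sub_zero]
  · show polar Q (u i - v i) (u j + v j) = 0
    rw [polar_sub_left, polar_add_right, polar_add_right, fr.uu, fr.vv, fr.uv, vu]
    ring
  · have hij : i ≠ j := fun h1 => h (by rw [h1])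
    show polar Q (u i - v i) (u j - v j) = 0
    rw [polar_sub_left, polar_sub_right, polar_sub_right, fr.uu, fr.vv, fr.uv, vu, if_neg hij]
    simp

theorem on_ne (i : Unit ⊕ (Fin 3 ⊕ Fin 3)) : on F i ≠ 0 := by
  rcases i with i | i | i
  · exact one_ne_zero
  · exact one_ne_zero
  · exact neg_ne_zero.2 one_ne_zero

theorem exists_basis (h2 : (2 : F) ≠ 0) (hd : finrank F V = 7) (fr : Fr Q u v w) :
    ∃ B : Basis (Unit ⊕ (Fin 3 ⊕ Fin 3)) F V, (∀ i, B i = ov u v w i) ∧ OB Q B (on F) := by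
  have : FiniteDimensional F V := Module.finite_of_finrank_pos (by omega)
  exact exists_OB h2 on_ne (ov_norm fr) (ov_orth fr) (by simp [hd])

theorem sg_pow (i j : Fin 3) : sg i j ^ 3 = 1 := by
  revert i j
  decide

/-- the permutation isometries -/
theorem exists_g (h2 : (2 : F) ≠ 0) (hd : finrank F V = 7) (fr : Fr Q u v w) :
    ∃ G : Fin 3 → Fin 3 → (V ≃ₗ[F] V), G 0 0 = 1 ∧ (∀ i j, G i j ∈ O Q) ∧ (∀ i j, G i j ^ 3 = 1) ∧
      ∀ i j k, G i j w = w ∧ G i j (av u v k) = av u v (k + i) ∧ G i j (bv u v k) = bv u v (k + j) := by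
  obtain ⟨B, hB, ob⟩ := exists_basis h2 hd fr
  refine ⟨fun i j => B.equiv B (sg i j), ?_, ?_, ?_, ?_⟩
  · have h1 : sg 0 0 = 1 := by decide
    show B.equiv B (sg 0 0) = 1
    rw [h1, equiv_one]
  · intro i j
    refine ob.perm_mem _ fun k => ?_
    rcases k with k | k | k <;> rfl
  · intro i j
    show (B.equiv B (sg i j)) ^ 3 = 1
    rw [equiv_pow, sg_pow, equiv_one]
  · intro i j k
    refine ⟨?_, ?_, ?_⟩
    · have h1 := equiv_apply' B (sg i j) (Sum.inl ())
      have h3 : sg i j (Sum.inl ()) = Sum.inl () := rfl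
      rw [h3, hB] at h1
      exact h1
    · have h1 := equiv_apply' B (sg i j) (Sum.inr (Sum.inl k))
      have h3 : sg i j (Sum.inr (Sum.inl k)) = Sum.inr (Sum.inl (k + i)) := rfl
      rw [h3, hB, hB] at h1
      exact h1
    · have h1 := equiv_apply' B (sg i j) (Sum.inr (Sum.inr k))
      have h3 : sg i j (Sum.inr (Sum.inr k)) = Sum.inr (Sum.inr (k + j)) := rfl
      rw [h3, hB, hB] at h1
      exact h1

/-- `M` and its conjugates -/
def MM (Q : QuadraticForm F V) (u v : Fin 3 → V) (w : V) (i j : Fin 3) : Subgroup (V ≃ₗ[F] V) := Om Q (pp Q (tr3 u v w i j))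

theorem MM_conj {i j : Fin 3} {g : V ≃ₗ[F] V} (hg : g ∈ O Q) (hw : g w = w) (ha : g (av u v 0) = av u v i)
    (hb : g (bv u v 0) = bv u v j) : (MM Q u v w 0 0).map (MulAut.conj g).toMonoidHom = MM Q u v w i j := by
  unfold MM
  rw [map_Om_pp hg]
  congr 2
  funext k
  fin_cases k
  · exact hw
  · exact ha
  · exact hb

theorem mem_tr3 {i j : Fin 3} {x : V} (hx : x ∈ pp Q (tr3 u v w i j)) :
    polar Q w x = 0 ∧ polar Q (av u v i) x = 0 ∧ polar Q (bv u v j) x = 0 :=
  ⟨mem_pp.1 hx 0, mem_pp.1 hx 1, mem_pp.1 hx 2⟩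

/-- the link elements -/
theorem link_a [Finite F] (h2 : (2 : F) ≠ 0) (hF : 6 ≤ Nat.card F) (fr : Fr Q u v w) (i : Fin 3) :
    ∃ x : V ≃ₗ[F] V, x ^ 2 ≠ 1 ∧ ∀ j, x ∈ MM Q u v w i j := by
  have h1 : Q w ≠ 0 := by rw [fr.w1]; exact one_ne_zero
  have h3 : Q (av u v i) ≠ 0 := by
    have := ov_norm fr (Sum.inr (Sum.inl i))
    rw [show av u v i = ov u v w (Sum.inr (Sum.inl i)) from rfl, this]
    exact on_ne _
  have h4 : polar Q w (av u v i) = 0 := ov_orth fr (Sum.inl ()) (Sum.inr (Sum.inl i)) (by simp)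
  obtain ⟨x, hx, h5⟩ := exists_link h2 hF h1 h3 h4
  exact ⟨x, hx, fun j => h5 _ fun y hy => ⟨(mem_tr3 hy).1, (mem_tr3 hy).2.1⟩⟩

theorem link_b [Finite F] (h2 : (2 : F) ≠ 0) (hF : 6 ≤ Nat.card F) (fr : Fr Q u v w) (j : Fin 3) :
    ∃ x : V ≃ₗ[F] V, x ^ 2 ≠ 1 ∧ ∀ i, x ∈ MM Q u v w i j := by
  have h1 : Q w ≠ 0 := by rw [fr.w1]; exact one_ne_zero
  have h3 : Q (bv u v j) ≠ 0 := by
    have := ov_norm fr (Sum.inr (Sum.inr j))
    rw [show bv u v j = ov u v w (Sum.inr (Sum.inr j)) from rfl, this]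
    exact on_ne _
  have h4 : polar Q w (bv u v j) = 0 := ov_orth fr (Sum.inl ()) (Sum.inr (Sum.inr j)) (by simp)
  obtain ⟨x, hx, h5⟩ := exists_link h2 hF h1 h3 h4
  exact ⟨x, hx, fun i => h5 _ fun y hy => ⟨(mem_tr3 hy).1, (mem_tr3 hy).2.2⟩⟩

/-- generation -/
theorem top_MM (h2 : (2 : F) ≠ 0) (fr : Fr Q u v w) {H : Subgroup (V ≃ₗ[F] V)} (hH : ∀ i, MM Q u v w i i ≤ H) :
    E Q ≤ H := by
  have hw : Q w ≠ 0 := by rw [fr.w1]; exact one_ne_zero
  have key : ∀ j, ∀ x ∈ pp Q (tr3 u v w j j), polar Q w x = 0 ∧ polar Q (u j) x = 0 ∧ polar Q (v j) x = 0 := by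
    intro j x hx
    obtain ⟨h3, h4, h5⟩ := mem_tr3 hx
    have h4' : polar Q (u j) x + polar Q (v j) x = 0 := by rw [← polar_add_left]; exact h4
    have h5' : polar Q (u j) x - polar Q (v j) x = 0 := by rw [← polar_sub_left]; exact h5
    refine ⟨h3, ?_, ?_⟩
    · have h6 : 2 * polar Q (u j) x = 0 := by linear_combination h4' + h5'
      exact (mul_eq_zero.1 h6).resolve_left h2
    · have h6 : 2 * polar Q (v j) x = 0 := by linear_combination h4' - h5'
      exact (mul_eq_zero.1 h6).resolve_left h2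
  refine (shortFrame_of_fr fr).top h2 fun j c hc => ?_
  rcases j with j | j
  · exact hH j (siegel_mem_Om h2 (fr.u0 j) (fr.uw j) hw (fun x hx => ⟨(key j x hx).2.1, (key j x hx).1⟩) c hc)
  · exact hH j (siegel_mem_Om h2 (fr.v0 j) (fr.vw j) hw (fun x hx => ⟨(key j x hx).2.2, (key j x hx).1⟩) c hc)

/-! ### `s` -/

theorem exists_sq_add_sq [Finite F] (h2 : (2 : F) ≠ 0) : ∃ x y : F, x ^ 2 + y ^ 2 = -1 := by
  have hft : Fintype F := Fintype.ofFinite F
  have hodd : Fintype.card F % 2 = 1 := by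
    refine FiniteField.odd_card_of_char_ne_two ?_
    intro h
    have h3 : ((2 : ℕ) : F) = 0 := by
      rw [← h]
      exact ringChar.Nat.cast_ringChar
    exact h2 (by exact_mod_cast h3)
  obtain ⟨x, y, h⟩ := FiniteField.exists_root_sum_quadratic (R := F) (f := Polynomial.X ^ 2) (g := Polynomial.X ^ 2 + Polynomial.C 1)
    (by rw [Polynomial.degree_X_pow]; rfl) (by rw [Polynomial.degree_X_pow_add_C (by norm_num)]; rfl) hodd
  refine ⟨x, y, ?_⟩
  simp only [Polynomial.eval_pow, Polynomial.eval_X, Polynomial.eval_add, Polynomial.eval_C] at h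
  linear_combination h

/-- the second orthogonal basis : norms `-1` -/
def fv (u v : Fin 3 → V) (w : V) (x y : F) : Fin 7 → V :=
  ![x • w + y • av u v 0, (-y) • w + x • av u v 0, bv u v 0, x • av u v 1 + y • av u v 2, (-y) • av u v 1 + x • av u v 2,
    bv u v 1, bv u v 2]

/-- `s` : `w ↦ a 1`, `a 0 ↦ a 2`, `b 0 ↦ b 1` -/
theorem exists_s [Finite F] (h2 : (2 : F) ≠ 0) (hd : finrank F V = 7) (fr : Fr Q u v w) :
    ∃ s : V ≃ₗ[F] V, s ∈ O Q ∧ s ^ 7 = 1 ∧ s w = av u v 1 ∧ s (av u v 0) = av u v 2 ∧ s (bv u v 0) = bv u v 1 := by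
  obtain ⟨x, y, hxy⟩ := exists_sq_add_sq (F := F) h2
  have : FiniteDimensional F V := Module.finite_of_finrank_pos (by omega)
  have hw : Q w = 1 := fr.w1
  have ha : ∀ i, Q (av u v i) = 1 := fun i => ov_norm fr (Sum.inr (Sum.inl i))
  have hb : ∀ i, Q (bv u v i) = -1 := fun i => ov_norm fr (Sum.inr (Sum.inr i))
  have wa : ∀ i, polar Q w (av u v i) = 0 := fun i => ov_orth fr (Sum.inl ()) (Sum.inr (Sum.inl i)) (by simp)
  have aw : ∀ i, polar Q (av u v i) w = 0 := fun i => ov_orth fr (Sum.inr (Sum.inl i)) (Sum.inl ()) (by simp)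
  have wb : ∀ i, polar Q w (bv u v i) = 0 := fun i => ov_orth fr (Sum.inl ()) (Sum.inr (Sum.inr i)) (by simp)
  have bw : ∀ i, polar Q (bv u v i) w = 0 := fun i => ov_orth fr (Sum.inr (Sum.inr i)) (Sum.inl ()) (by simp)
  have ab : ∀ i j, polar Q (av u v i) (bv u v j) = 0 := fun i j =>
    ov_orth fr (Sum.inr (Sum.inl i)) (Sum.inr (Sum.inr j)) (by simp)
  have ba : ∀ i j, polar Q (bv u v i) (av u v j) = 0 := fun i j =>
    ov_orth fr (Sum.inr (Sum.inr i)) (Sum.inr (Sum.inl j)) (by simp)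
  have aa : ∀ i j, polar Q (av u v i) (av u v j) = if i = j then 2 else 0 := by
    intro i j
    split_ifs with h
    · rw [h, polar_self', ha, mul_one]
    · exact ov_orth fr (Sum.inr (Sum.inl i)) (Sum.inr (Sum.inl j)) (by simpa using h)
  have bb : ∀ i j, i ≠ j → polar Q (bv u v i) (bv u v j) = 0 := fun i j h =>
    ov_orth fr (Sum.inr (Sum.inr i)) (Sum.inr (Sum.inr j)) (by simpa using h)
  have ww : polar Q w w = 2 := by rw [polar_self', hw, mul_one]
  have hn : ∀ i, Q (fv u v w x y i) = (fun _ : Fin 7 => (-1 : F)) i := by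
    intro i
    fin_cases i
    · show Q (x • w + y • av u v 0) = -1
      rw [Q_add, QuadraticMap.map_smul, QuadraticMap.map_smul, polar_smul_left, polar_smul_right, hw, ha, wa]
      simp only [smul_eq_mul]
      linear_combination hxy
    · show Q ((-y) • w + x • av u v 0) = -1
      rw [Q_add, QuadraticMap.map_smul, QuadraticMap.map_smul, polar_smul_left, polar_smul_right, hw, ha, wa]
      simp only [smul_eq_mul]
      linear_combination hxy
    · exact hb 0
    · show Q (x • av u v 1 + y • av u v 2) = -1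
      rw [Q_add, QuadraticMap.map_smul, QuadraticMap.map_smul, polar_smul_left, polar_smul_right, ha, ha, aa,
        if_neg (by decide)]
      simp only [smul_eq_mul]
      linear_combination hxy
    · show Q ((-y) • av u v 1 + x • av u v 2) = -1
      rw [Q_add, QuadraticMap.map_smul, QuadraticMap.map_smul, polar_smul_left, polar_smul_right, ha, ha, aa,
        if_neg (by decide)]
      simp only [smul_eq_mul]
      linear_combination hxy
    · exact hb 1
    · exact hb 2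
  have b01 := bb 0 1 (by decide)
  have b02 := bb 0 2 (by decide)
  have b12 := bb 1 2 (by decide)
  have b10 := bb 1 0 (by decide)
  have b20 := bb 2 0 (by decide)
  have b21 := bb 2 1 (by decide)
  have ho : ∀ i j, i ≠ j → polar Q (fv u v w x y i) (fv u v w x y j) = 0 := by
    intro i j hij
    fin_cases i <;> fin_cases j <;>
    first
    | exact absurd rfl hij
    | (simp only [fv, Matrix.cons_val, Matrix.cons_val_zero, Matrix.cons_val_one, Fin.mk_one, Fin.zero_eta, Fin.isValue,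
        Fin.reduceFinMk, polar_add_left, polar_add_right,
        polar_smul_left, polar_smul_right, wa, aw, wb, bw, ab, ba, aa, ww, b01, b02, b12, b10, b20, b21, smul_eq_mul]
       try simp
       try ring)
  obtain ⟨B, hB, ob⟩ := exists_OB h2 (fun _ => neg_ne_zero.2 one_ne_zero) hn ho (by simp [hd])
  let σ : Equiv.Perm (Fin 7) := Equiv.addRight 3
  have hσ : σ ^ 7 = 1 := by decide
  have h0 := equiv_apply' B σ 0
  have h1 := equiv_apply' B σ 1
  have h3 := equiv_apply' B σ 2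
  rw [show σ 0 = 3 from rfl, hB, hB] at h0
  rw [show σ 1 = 4 from rfl, hB, hB] at h1
  rw [show σ 2 = 5 from rfl, hB, hB] at h3
  refine ⟨B.equiv B σ, ob.perm_mem σ fun i => rfl, ?_, ?_, ?_, ?_⟩
  · rw [equiv_pow, hσ, equiv_one]
  · have e1 : w = (-x) • fv u v w x y 0 + y • fv u v w x y 1 := by
      show w = (-x) • (x • w + y • av u v 0) + y • ((-y) • w + x • av u v 0)
      have : (-x) • (x • w + y • av u v 0) + y • ((-y) • w + x • av u v 0) = (-(x ^ 2 + y ^ 2)) • w := by module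
      rw [this, hxy, neg_neg, one_smul]
    conv_lhs => rw [e1]
    rw [map_add, map_smul, map_smul, h0, h1]
    show (-x) • (x • av u v 1 + y • av u v 2) + y • ((-y) • av u v 1 + x • av u v 2) = av u v 1
    have : (-x) • (x • av u v 1 + y • av u v 2) + y • ((-y) • av u v 1 + x • av u v 2) = (-(x ^ 2 + y ^ 2)) • av u v 1 := by
      module
    rw [this, hxy, neg_neg, one_smul]
  · have e1 : av u v 0 = (-y) • fv u v w x y 0 + (-x) • fv u v w x y 1 := by
      show av u v 0 = (-y) • (x • w + y • av u v 0) + (-x) • ((-y) • w + x • av u v 0)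
      have : (-y) • (x • w + y • av u v 0) + (-x) • ((-y) • w + x • av u v 0) = (-(x ^ 2 + y ^ 2)) • av u v 0 := by module
      rw [this, hxy, neg_neg, one_smul]
    conv_lhs => rw [e1]
    rw [map_add, map_smul, map_smul, h0, h1]
    show (-y) • (x • av u v 1 + y • av u v 2) + (-x) • ((-y) • av u v 1 + x • av u v 2) = av u v 2
    have : (-y) • (x • av u v 1 + y • av u v 2) + (-x) • ((-y) • av u v 1 + x • av u v 2) = (-(x ^ 2 + y ^ 2)) • av u v 2 := by
      module
    rw [this, hxy, neg_neg, one_smul]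
  · exact h3

/-- `M` and `s M s⁻¹` commute -/
theorem s_comm (h2 : (2 : F) ≠ 0) (fr : Fr Q u v w) {s : V ≃ₗ[F] V} (hs : s ∈ O Q)
    (hw : s w = av u v 1) (ha : s (av u v 0) = av u v 2) (hb : s (bv u v 0) = bv u v 1) {x y : V ≃ₗ[F] V}
    (hx : x ∈ MM Q u v w 0 0) (hy : y ∈ MM Q u v w 0 0) : x * (s * y * s⁻¹) = (s * y * s⁻¹) * x := by
  have hc : ∀ k, Q (tr3 u v w 0 0 k) ≠ 0 := by
    intro k
    fin_cases k
    · exact (ov_norm fr (Sum.inl ())).trans_ne (on_ne _)
    · exact (ov_norm fr (Sum.inr (Sum.inl 0))).trans_ne (on_ne _)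
    · exact (ov_norm fr (Sum.inr (Sum.inr 0))).trans_ne (on_ne _)
  have ho : ∀ k l, k ≠ l → polar Q (tr3 u v w 0 0 k) (tr3 u v w 0 0 l) = 0 := by
    intro k l hkl
    fin_cases k <;> fin_cases l
    · exact absurd rfl hkl
    · exact ov_orth fr (Sum.inl ()) (Sum.inr (Sum.inl 0)) (by simp)
    · exact ov_orth fr (Sum.inl ()) (Sum.inr (Sum.inr 0)) (by simp)
    · exact ov_orth fr (Sum.inr (Sum.inl 0)) (Sum.inl ()) (by simp)
    · exact absurd rfl hkl
    · exact ov_orth fr (Sum.inr (Sum.inl 0)) (Sum.inr (Sum.inr 0)) (by simp)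
    · exact ov_orth fr (Sum.inr (Sum.inr 0)) (Sum.inl ()) (by simp)
    · exact ov_orth fr (Sum.inr (Sum.inr 0)) (Sum.inr (Sum.inl 0)) (by simp)
    · exact absurd rfl hkl
  have hcc : ∀ k l, polar Q (tr3 u v w 0 0 k) (s (tr3 u v w 0 0 l)) = 0 := by
    intro k l
    fin_cases l
    · show polar Q _ (s w) = 0
      rw [hw]
      fin_cases k
      · exact ov_orth fr (Sum.inl ()) (Sum.inr (Sum.inl 1)) (by simp)
      · exact ov_orth fr (Sum.inr (Sum.inl 0)) (Sum.inr (Sum.inl 1)) (by simp)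
      · exact ov_orth fr (Sum.inr (Sum.inr 0)) (Sum.inr (Sum.inl 1)) (by simp)
    · show polar Q _ (s (av u v 0)) = 0
      rw [ha]
      fin_cases k
      · exact ov_orth fr (Sum.inl ()) (Sum.inr (Sum.inl 2)) (by simp)
      · exact ov_orth fr (Sum.inr (Sum.inl 0)) (Sum.inr (Sum.inl 2)) (by simp)
      · exact ov_orth fr (Sum.inr (Sum.inr 0)) (Sum.inr (Sum.inl 2)) (by simp)
    · show polar Q _ (s (bv u v 0)) = 0
      rw [hb]
      fin_cases k
      · exact ov_orth fr (Sum.inl ()) (Sum.inr (Sum.inr 1)) (by simp)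
      · exact ov_orth fr (Sum.inr (Sum.inl 0)) (Sum.inr (Sum.inr 1)) (by simp)
      · exact ov_orth fr (Sum.inr (Sum.inr 0)) (Sum.inr (Sum.inr 1)) (by simp)
  have h1 : s * y * s⁻¹ ∈ Om Q (pp Q fun k => s (tr3 u v w 0 0 k)) := by
    rw [← map_Om_pp hs]
    exact ⟨y, hy, rfl⟩
  exact pp_comm h2 hc ho hcc (Om_le_PW hx) (Om_le_PW h1)

end Cfsg.Agent.H466.O8R
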