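import Cfsg.Agent.H466.O8R.Gs
import Cfsg.Agent.H885.O8R.Ext
import Cfsg.Agent.H953.O8R.Data

/-!
# S3691, `PΩ⁺₈(q)`, DATA-OM: `M`, `s`, `g` : all fields, inside `⁅O Q, O Q⁆` (helper466)
-/

set_option autoImplicit false
set_option linter.unusedSectionVars false

namespace Cfsg.Agent.H466.O8R

open Module QuadraticMap Cfsg.Agent.LieClassical.OrthCore Cfsg.Agent.LieClassical.OrthFinite
open Cfsg.Agent.LieClassical.OrthTrans
open Cfsg.Agent.H36.Om7 Cfsg.Agent.H292.O8R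
open Cfsg.Agent.H953.O8R (cj)

variable {F V : Type*} [Field F] [Fintype F] [AddCommGroup V] [Module F V] {Q : QuadraticForm F V}
variable {u v : Fin 3 → V} {w : V}

theorem mem_pp_tr3 (h2 : (2 : F) ≠ 0) (r : V) :
    r ∈ pp Q (tr3 u v w 0 0) ↔ polar Q (u 0) r = 0 ∧ polar Q (v 0) r = 0 ∧ polar Q w r = 0 := by
  constructor
  · intro hx
    obtain ⟨h3, h4, h5⟩ := mem_tr3 hx
    have h4' : polar Q (u 0) r + polar Q (v 0) r = 0 := by rw [← polar_add_left]; exact h4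
    have h5' : polar Q (u 0) r - polar Q (v 0) r = 0 := by rw [← polar_sub_left]; exact h5
    refine ⟨?_, ?_, h3⟩
    · have h6 : 2 * polar Q (u 0) r = 0 := by linear_combination h4' + h5'
      exact (mul_eq_zero.1 h6).resolve_left h2
    · have h6 : 2 * polar Q (v 0) r = 0 := by linear_combination h4' - h5'
      exact (mul_eq_zero.1 h6).resolve_left h2
  · rintro ⟨h3, h4, h5⟩
    rw [mem_pp]
    intro k
    fin_cases k
    · exact h5
    · show polar Q (u 0 + v 0) r = 0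
      rw [polar_add_left, h3, h4, add_zero]
    · show polar Q (u 0 - v 0) r = 0
      rw [polar_sub_left, h3, h4, sub_zero]

theorem fr3_of_fr (h2 : (2 : F) ≠ 0) (fr : Fr Q u v w) : Cfsg.Agent.H16.SN.Fr3 Q (u 0) (v 0) w :=
  ⟨⟨fr.u0 0, fr.v0 0, by rw [fr.uv, if_pos rfl]⟩, fr.uw 0, fr.vw 0, by rw [fr.w1]; exact one_ne_zero, h2⟩

/-- `M` is perfect -/
theorem M_perf (h2 : (2 : F) ≠ 0) (hF : 3 < Fintype.card F) (hQ : Nondeg Q) (fr : Fr Q u v w) :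
    ⁅MM Q u v w 0 0, MM Q u v w 0 0⁆ = MM Q u v w 0 0 :=
  Cfsg.Agent.H885.O8R.perfect_fr hF hQ (fr3_of_fr h2 fr) (mem_pp_tr3 h2)

/-- normal subgroups of `M` -/
theorem M_top (h2 : (2 : F) ≠ 0) (hF : 3 < Fintype.card F) (hQ : Nondeg Q) (fr : Fr Q u v w)
    {N : Subgroup (V ≃ₗ[F] V)} (hN : N ≤ MM Q u v w 0 0) (hN' : ∀ g ∈ MM Q u v w 0 0, ∀ x ∈ N, g * x * g⁻¹ ∈ N)
    {g : V ≃ₗ[F] V} (hg : g ∈ N) (hg2 : g ^ 2 ≠ 1) : N = MM Q u v w 0 0 :=
  Cfsg.Agent.H885.O8R.normal_fr hF hQ (fr3_of_fr h2 fr) (mem_pp_tr3 h2) hN hN' hg hg2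

/-- **`s` and `g`** -/
theorem om_sg (h2 : (2 : F) ≠ 0) (hF : 6 ≤ Fintype.card F) (hQ : Nondeg Q) (hd : finrank F V = 7) (fr : Fr Q u v w) :
    ∃ (s : V ≃ₗ[F] V) (g : Fin 5 → (V ≃ₗ[F] V)), s ∈ ⁅O Q, O Q⁆ ∧ s ^ 7 = 1 ∧
      (∀ x ∈ MM Q u v w 0 0, ∀ y ∈ MM Q u v w 0 0, x * (s * y * s⁻¹) = (s * y * s⁻¹) * x) ∧
      g 0 = 1 ∧ (∀ i, g i ∈ ⁅O Q, O Q⁆) ∧
      (∀ i : Fin 5, i ≠ 0 → ∃ j < i, ∃ x ∈ cj (g i) (MM Q u v w 0 0), x ∈ cj (g j) (MM Q u v w 0 0) ∧ x ^ 2 ≠ 1) ∧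
      ⁅O Q, O Q⁆ ≤ ⨆ i, cj (g i) (MM Q u v w 0 0) := by
  have hfd : FiniteDimensional F V := Module.finite_of_finrank_pos (by omega)
  have hG : Good Q := good_of_finite hQ (by omega)
  have hF' : 6 ≤ Nat.card F := by rwa [Nat.card_eq_fintype_card]
  obtain ⟨s, hs, hs7, hsw, hsa, hsb⟩ := exists_s h2 hd fr
  obtain ⟨G, hG0, hGO, hG3, hGa⟩ := exists_g h2 hd fr
  have hc : ∀ i j, cj (G i j) (MM Q u v w 0 0) = MM Q u v w i j := by
    intro i j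
    obtain ⟨h3, h4, h5⟩ := hGa i j 0
    refine MM_conj (hGO i j) h3 ?_ ?_
    · rw [h4, zero_add]
    · rw [h5, zero_add]
  let p : Fin 5 → Fin 3 × Fin 3 := ![(0, 0), (0, 1), (1, 1), (1, 2), (2, 2)]
  refine ⟨s, fun i => G (p i).1 (p i).2, Cfsg.Agent.H885.O8R.odd_mem hG hs (by decide) hs7, hs7,
    fun x hx y hy => s_comm h2 fr hs hsw hsa hsb hx hy, hG0,
    fun i => Cfsg.Agent.H885.O8R.odd_mem hG (hGO _ _) (by decide) (hG3 _ _), ?_, ?_⟩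
  · intro i hi
    obtain ⟨xa0, ha0, ha0'⟩ := link_a h2 hF' fr 0
    obtain ⟨xa1, ha1, ha1'⟩ := link_a h2 hF' fr 1
    obtain ⟨xb1, hb1, hb1'⟩ := link_b h2 hF' fr 1
    obtain ⟨xb2, hb2, hb2'⟩ := link_b h2 hF' fr 2
    fin_cases i
    · exact absurd rfl hi
    · refine ⟨0, by decide, xa0, ?_, ?_, ha0⟩
      · show xa0 ∈ cj (G 0 1) (MM Q u v w 0 0)
        rw [hc]
        exact ha0' 1
      · show xa0 ∈ cj (G 0 0) (MM Q u v w 0 0)
        rw [hc]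
        exact ha0' 0
    · refine ⟨1, by decide, xb1, ?_, ?_, hb1⟩
      · show xb1 ∈ cj (G 1 1) (MM Q u v w 0 0)
        rw [hc]
        exact hb1' 1
      · show xb1 ∈ cj (G 0 1) (MM Q u v w 0 0)
        rw [hc]
        exact hb1' 0
    · refine ⟨2, by decide, xa1, ?_, ?_, ha1⟩
      · show xa1 ∈ cj (G 1 2) (MM Q u v w 0 0)
        rw [hc]
        exact ha1' 2
      · show xa1 ∈ cj (G 1 1) (MM Q u v w 0 0)
        rw [hc]
        exact ha1' 1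
    · refine ⟨3, by decide, xb2, ?_, ?_, hb2⟩
      · show xb2 ∈ cj (G 2 2) (MM Q u v w 0 0)
        rw [hc]
        exact hb2' 2
      · show xb2 ∈ cj (G 1 2) (MM Q u v w 0 0)
        rw [hc]
        exact hb2' 1
  · rw [hG.commutator_eq_E]
    refine top_MM h2 fr fun i => ?_
    have key : ∀ k : Fin 5, cj (G (p k).1 (p k).2) (MM Q u v w 0 0) ≤
        ⨆ i, cj ((fun i => G (p i).1 (p i).2) i) (MM Q u v w 0 0) := fun k =>
      le_iSup (fun i => cj ((fun i => G (p i).1 (p i).2) i) (MM Q u v w 0 0)) k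
    fin_cases i
    · have := key 0
      rw [show p 0 = (0, 0) from rfl, hc] at this
      exact this
    · have := key 2
      rw [show p 2 = (1, 1) from rfl, hc] at this
      exact this
    · have := key 4
      rw [show p 4 = (2, 2) from rfl, hc] at this
      exact this

end Cfsg.Agent.H466.O8R
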