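import Cfsg.Agent.LieClassical.OrthCore

/-!
# S3691, `PΩ⁺₈(q)`: generation of `Ω` by short root groups (helper466)

`e j`, `e (σ j)` hyperbolic pairs, `w` nonsingular, orthogonal to them. In characteristic `≠ 2` the Siegel transformations
`siegel (e j) (c w)` generate `E Q`.
-/

set_option autoImplicit false

namespace Cfsg.Agent.H466.O8R

open QuadraticMap
open Cfsg.Agent.LieClassical.OrthCore

variable {F V : Type*} [Field F] [AddCommGroup V] [Module F V] {Q : QuadraticForm F V}

/-- hyperbolic pairs `e j`, `e (σ j)` and a vector `w` -/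
structure ShortFrame {J : Type} (Q : QuadraticForm F V) (e : J → V) (σ : J → J) (w : V) : Prop where
  inv : ∀ j, σ (σ j) = j
  ne : ∀ j, σ j ≠ j
  sing : ∀ j, Q (e j) = 0
  pair : ∀ j, polar Q (e j) (e (σ j)) = 1
  perp : ∀ j k, k ≠ σ j → polar Q (e j) (e k) = 0
  pw : ∀ j, polar Q (e j) w = 0
  w0 : Q w ≠ 0
  span : ∀ x, (∀ j, polar Q (e j) x = 0) → ∃ d : F, x = d • w

theorem siegel_congr {u u' w w' : V} (h1 : u = u') (h2 : w = w') (hu : Q u = 0) (hw : polar Q u w = 0) (hu' : Q u' = 0)
    (hw' : polar Q u' w' = 0) : siegel Q u w hu hw = siegel Q u' w' hu' hw' := by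
  subst h1
  subst h2
  rfl

theorem siegel_smul_left {u w : V} {c : F} (hu : Q (c • u) = 0) (hw : polar Q (c • u) w = 0) (hu' : Q u = 0)
    (hw' : polar Q u (c • w) = 0) : siegel Q (c • u) w hu hw = siegel Q u (c • w) hu' hw' := by
  ext v
  rw [siegel_apply, siegel_apply, polar_smul_left, polar_smul_left, QuadraticMap.map_smul, smul_eq_mul, smul_eq_mul,
    smul_eq_mul]
  module

theorem siegel_self {u : V} {c : F} (hu : Q u = 0) (hw : polar Q u (c • u) = 0) : siegel Q u (c • u) hu hw = 1 := by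
  ext v
  rw [siegel_apply, polar_smul_left, QuadraticMap.map_smul, hu, smul_eq_mul, smul_eq_mul]
  show _ = v
  module

theorem siegel_zero_left {w : V} (hu : Q (0 : V) = 0) (hw : polar Q (0 : V) w = 0) : siegel Q 0 w hu hw = 1 := by
  ext v
  rw [siegel_apply]
  show _ = v
  simp

theorem siegel_zero_right {u : V} (hu : Q u = 0) (hw : polar Q u (0 : V) = 0) : siegel Q u 0 hu hw = 1 := by
  ext v
  rw [siegel_apply]
  show _ = v
  simp

variable {J : Type} {e : J → V} {σ : J → J} {w : V} {H : Subgroup (V ≃ₗ[F] V)}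

/-- step one : the long root groups are commutators -/
theorem ShortFrame.long (h : ShortFrame Q e σ w) (h2 : (2 : F) ≠ 0)
    (hH : ∀ (j : J) (c : F) (hw : polar Q (e j) (c • w) = 0), siegel Q (e j) (c • w) (h.sing j) hw ∈ H)
    {j k : J} (hk' : k ≠ σ j) (c : F) (hc : polar Q (e j) (c • e k) = 0) :
    siegel Q (e j) (c • e k) (h.sing j) hc ∈ H := by
  have hjw : ∀ (j : J) (c : F), polar Q (e j) (c • w) = 0 := fun j c => by
    rw [polar_smul_right, h.pw, smul_zero]
  obtain ⟨b, hb⟩ : ∃ b : F, -(2 * b * Q w) = c := ⟨-(c / (2 * Q w)), by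
    have := h.w0
    field_simp⟩
  have hjk : polar Q (e j) (e k) = 0 := h.perp _ _ hk'
  have hkj : polar Q (e k) (e j) = 0 := by rw [polar_comm]; exact hjk
  have hwk : polar Q w (e j) = 0 := by rw [polar_comm]; exact h.pw j
  have hwk' : polar Q w (e k) = 0 := by rw [polar_comm]; exact h.pw k
  -- `S = siegel (e k) w`, `T = siegel (e j) (b w)`
  have hS := hH k 1 (hjw k 1)
  have hT := hH j b (hjw j b)
  have e1 : siegel Q (e k) ((1 : F) • w) (h.sing k) (hjw k 1) (e j) = e j := by
    rw [siegel_apply, hkj, polar_smul_left, hwk]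
    simp
  have e2 : siegel Q (e k) ((1 : F) • w) (h.sing k) (hjw k 1) (b • w) = b • w + c • e k := by
    rw [siegel_apply, polar_smul_right, h.pw, polar_smul_left, polar_smul_right, polar_self', ← hb]
    simp only [smul_eq_mul, mul_zero, zero_smul, one_mul, sub_zero, add_zero]
    module
  have hu' : Q (siegel Q (e k) ((1 : F) • w) (h.sing k) (hjw k 1) (e j)) = 0 := by rw [e1]; exact h.sing j
  have hw' : polar Q (siegel Q (e k) ((1 : F) • w) (h.sing k) (hjw k 1) (e j))
      (siegel Q (e k) ((1 : F) • w) (h.sing k) (hjw k 1) (b • w)) = 0 := by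
    rw [e1, e2, polar_add_right, hjw, zero_add]
    exact hc
  have h3 := siegel_conj (siegel_mem_O (h.sing k) (hjw k 1)) (h.sing j) (hjw j b) hu' hw'
  have h4 : polar Q (e j) (b • w + c • e k) = 0 := by
    rw [polar_add_right, hjw, zero_add]
    exact hc
  rw [siegel_congr e1 e2 hu' hw' (h.sing j) h4, ← siegel_mul (h.sing j) (hjw j b) hc h4] at h3
  have h5 : siegel Q (e j) (c • e k) (h.sing j) hc = (siegel Q (e j) (b • w) (h.sing j) (hjw j b))⁻¹ *
      (siegel Q (e k) ((1 : F) • w) (h.sing k) (hjw k 1) * siegel Q (e j) (b • w) (h.sing j) (hjw j b) *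
        (siegel Q (e k) ((1 : F) • w) (h.sing k) (hjw k 1))⁻¹) := by
    rw [h3, inv_mul_cancel_left]
  rw [h5]
  exact H.mul_mem (H.inv_mem hT) (H.mul_mem (H.mul_mem hS hT) (H.inv_mem hS))

/-- coordinates -/
theorem ShortFrame.coords [Fintype J] [DecidableEq J] (h : ShortFrame Q e σ w) (x : V) :
    ∃ d : F, x = ∑ k, polar Q (e (σ k)) x • e k + d • w := by
  obtain ⟨d, hd⟩ := h.span (x - ∑ k, polar Q (e (σ k)) x • e k) (fun j => by
    rw [polar_sub_right]
    have h1 : polar Q (e j) (∑ k, polar Q (e (σ k)) x • e k) = polar Q (e j) x := by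
      have h2 : ∀ y, polar Q (e j) y = polarBilin Q (e j) y := fun y => rfl
      rw [h2, map_sum, Finset.sum_eq_single (σ j)]
      · rw [map_smul, ← h2, h.pair, h.inv, smul_eq_mul, mul_one]
      · intro k _ hk
        rw [map_smul, ← h2, h.perp _ _ hk, smul_zero]
      · intro hk
        exact absurd (Finset.mem_univ _) hk
    rw [h1, sub_self])
  exact ⟨d, by rw [← hd]; abel⟩

/-- step two : all Siegel transformations for `e j` -/
theorem ShortFrame.all [Fintype J] [DecidableEq J] (h : ShortFrame Q e σ w) (h2 : (2 : F) ≠ 0)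
    (hH : ∀ (j : J) (c : F) (hw : polar Q (e j) (c • w) = 0), siegel Q (e j) (c • w) (h.sing j) hw ∈ H)
    (j : J) {z : V} (hz : polar Q (e j) z = 0) : siegel Q (e j) z (h.sing j) hz ∈ H := by
  -- the good vectors
  let P : V → Prop := fun z => ∃ hz : polar Q (e j) z = 0, siegel Q (e j) z (h.sing j) hz ∈ H
  have hadd : ∀ x y, P x → P y → P (x + y) := by
    rintro x y ⟨hx, hx'⟩ ⟨hy, hy'⟩
    have hxy : polar Q (e j) (x + y) = 0 := by rw [polar_add_right, hx, hy, add_zero]
    exact ⟨hxy, by rw [← siegel_mul (h.sing j) hx hy hxy]; exact H.mul_mem hx' hy'⟩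
  have hzero : P 0 := ⟨polar_zero_right _ _, by rw [siegel_zero_right]; exact H.one_mem⟩
  obtain ⟨d, hd⟩ := h.coords z
  have hP : P z := by
    rw [hd]
    refine hadd _ _ ?_ ?_
    · refine Finset.sum_induction _ P hadd hzero fun k _ => ?_
      by_cases hk : k = σ j
      · have h3 : polar Q (e (σ k)) z = 0 := by rw [hk, h.inv]; exact hz
        rw [h3, zero_smul]
        exact hzero
      · have h3 : polar Q (e j) (polar Q (e (σ k)) z • e k) = 0 := by
          rw [polar_smul_right, h.perp _ _ hk, smul_zero]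
        refine ⟨h3, ?_⟩
        by_cases hkj : k = j
        · subst hkj
          rw [siegel_self]
          exact H.one_mem
        · exact h.long h2 hH hk _ h3
    · have h3 : polar Q (e j) (d • w) = 0 := by rw [polar_smul_right, h.pw, smul_zero]
      exact ⟨h3, hH j d h3⟩
  obtain ⟨_, h4⟩ := hP
  exact h4

/-- **the theorem** -/
theorem ShortFrame.top [Fintype J] [DecidableEq J] (h : ShortFrame Q e σ w) (h2 : (2 : F) ≠ 0)
    (hH : ∀ (j : J) (c : F) (hw : polar Q (e j) (c • w) = 0), siegel Q (e j) (c • w) (h.sing j) hw ∈ H) : E Q ≤ H := by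
  rw [E, Subgroup.closure_le]
  rintro _ ⟨x, z, hx, hz, rfl⟩
  by_cases hx0 : x = 0
  · subst hx0
    rw [siegel_zero_left]
    exact H.one_mem
  -- a basis vector not orthogonal to `x`
  obtain ⟨j, hj⟩ : ∃ j, polar Q (e j) x ≠ 0 := by
    by_contra hcon
    push Not at hcon
    obtain ⟨d, rfl⟩ := h.span x hcon
    rw [QuadraticMap.map_smul, smul_eq_mul] at hx
    rcases mul_eq_zero.1 hx with h3 | h3
    · exact hx0 (by rw [mul_self_eq_zero.1 h3, zero_smul])
    · exact h.w0 h3
  obtain ⟨c, hc⟩ : ∃ c, polar Q (e j) x = c := ⟨_, rfl⟩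
  rw [hc] at hj
  -- `x = c y`
  obtain ⟨y, rfl⟩ : ∃ y, x = c • y := ⟨c⁻¹ • x, by rw [smul_smul, mul_inv_cancel₀ hj, one_smul]⟩
  have hy1 : polar Q (e j) y = 1 := by
    rw [polar_smul_right, smul_eq_mul] at hc
    exact mul_left_cancel₀ hj (by rw [hc, mul_one])
  have hy : Q y = 0 := by
    rw [QuadraticMap.map_smul, smul_eq_mul] at hx
    rcases mul_eq_zero.1 hx with h3 | h3
    · exact absurd (mul_self_eq_zero.1 h3) hj
    · exact h3
  obtain ⟨p, hp⟩ : ∃ p, polar Q (e (σ j)) y = p := ⟨_, rfl⟩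
  have hjj : polar Q (e j) (e j) = 0 := polar_self_of_sing (h.sing j)
  have hss : polar Q (e (σ j)) (e (σ j)) = 0 := polar_self_of_sing (h.sing _)
  have hsj : polar Q (e (σ j)) (e j) = 1 := by rw [polar_comm]; exact h.pair j
  obtain ⟨v, hv⟩ : ∃ v, v = y - e (σ j) - p • e j := ⟨_, rfl⟩
  have hvy : y = e (σ j) + v + p • e j := by rw [hv]; abel
  have hv1 : polar Q (e j) v = 0 := by
    rw [hv, polar_sub_right, polar_sub_right, polar_smul_right, hy1, h.pair, hjj]
    simp
  have hv2 : polar Q (e (σ j)) v = 0 := by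
    rw [hv, polar_sub_right, polar_sub_right, polar_smul_right, hp, hss, hsj]
    simp
  have hpv : p = -Q v := by
    have h3 := hy
    rw [hvy, Q_add, Q_add, QuadraticMap.map_smul, h.sing, h.sing, polar_add_left, polar_smul_right, polar_smul_right,
      hv2, hsj, polar_comm _ v (e j), hv1] at h3
    simp only [smul_eq_mul, mul_zero, mul_one, add_zero, zero_add] at h3
    exact eq_neg_of_add_eq_zero_right h3
  obtain ⟨g, hg⟩ : ∃ g, g = siegel Q (e j) v (h.sing j) hv1 := ⟨_, rfl⟩
  have hgH : g ∈ H := by rw [hg]; exact h.all h2 hH j hv1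
  have hgO : g ∈ O Q := by rw [hg]; exact siegel_mem_O _ _
  have hgy : g (e (σ j)) = y := by
    have hv3 : polar Q v (e (σ j)) = 0 := by rw [polar_comm]; exact hv2
    rw [hg, siegel_apply, h.pair, hv3, hvy, hpv]
    simp only [one_smul, zero_smul, sub_zero, mul_one, neg_smul]
    abel
  obtain ⟨z', rfl⟩ := g.surjective z
  have hsz : polar Q (e (σ j)) (c • z') = 0 := by
    rw [polar_smul_left, ← hgy, polar_map hgO] at hz
    rw [polar_smul_right]
    exact hz
  have h3 : polar Q (g (e (σ j))) (g (c • z')) = 0 := by rw [polar_map hgO]; exact hsz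
  have h4 : Q (g (e (σ j))) = 0 := by rw [mem_O.1 hgO]; exact h.sing _
  have h5 : siegel Q (c • y) (g z') hx hz = g * siegel Q (e (σ j)) (c • z') (h.sing _) hsz * g⁻¹ := by
    rw [siegel_conj hgO (h.sing _) hsz h4 h3]
    have h6 : Q y = 0 := hy
    have h7 : polar Q y (c • g z') = 0 := by
      rw [polar_smul_right]
      rw [polar_smul_left] at hz
      exact hz
    rw [siegel_smul_left hx hz h6 h7]
    exact siegel_congr hgy.symm (map_smul g c z').symm _ _ _ _
  rw [h5]
  exact H.mul_mem (H.mul_mem hgH (h.all h2 hH _ hsz)) (H.inv_mem hgH)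

end Cfsg.Agent.H466.O8R
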