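import Cfsg.Agent.H466.O8R.Plane
import Cfsg.Agent.H466.O8R.Top

/-!
# S3691, `PΩ⁺₈(q)`, DATA-OM: `PW Q (pp Q c)`, short root elements (helper466)

`pp Q c` : the subspace orthogonal to the family `c`.
-/

set_option autoImplicit false

namespace Cfsg.Agent.H466.O8R

open QuadraticMap
open Cfsg.Agent.LieClassical.OrthCore

variable {F V : Type*} [Field F] [AddCommGroup V] [Module F V] {Q : QuadraticForm F V}

/-- the subspace orthogonal to `c` -/
def pp {κ : Type*} (Q : QuadraticForm F V) (c : κ → V) : Submodule F V := ⨅ k, LinearMap.ker (polarBilin Q (c k))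

theorem mem_pp {κ : Type*} {c : κ → V} {v : V} : v ∈ pp Q c ↔ ∀ k, polar Q (c k) v = 0 := by
  rw [pp, Submodule.mem_iInf]
  rfl

theorem map_pp {κ : Type*} {c : κ → V} {g : V ≃ₗ[F] V} (hg : g ∈ O Q) :
    (pp Q c).map (g : V →ₗ[F] V) = pp Q (fun k => g (c k)) := by
  ext v
  constructor
  · rintro ⟨x, hx, rfl⟩
    rw [mem_pp]
    intro k
    show polar Q (g (c k)) (g x) = 0
    rw [polar_map hg]
    exact mem_pp.1 hx k
  · intro hv
    obtain ⟨x, rfl⟩ := g.surjective v
    refine ⟨x, mem_pp.2 fun k => ?_, rfl⟩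
    rw [← polar_map hg]
    exact mem_pp.1 hv k

/-- `g M g⁻¹` for `M = Om Q (pp Q c)` -/
theorem map_Om_pp {κ : Type*} {c : κ → V} {g : V ≃ₗ[F] V} (hg : g ∈ O Q) :
    (Om Q (pp Q c)).map (MulAut.conj g).toMonoidHom = Om Q (pp Q fun k => g (c k)) := by
  rw [map_Om hg, map_pp hg]

/-- `PW (pp c)` stabilises `pp c'` if `c ⊥ c'` -/
theorem pp_stable {κ κ' : Type*} {c : κ → V} {c' : κ' → V} (hcc : ∀ k l, polar Q (c k) (c' l) = 0) {a : V ≃ₗ[F] V}
    (ha : a ∈ PW Q (pp Q c)) {v : V} (hv : v ∈ pp Q c') : a v ∈ pp Q c' := by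
  rw [mem_pp]
  intro l
  have h1 : a (c' l) = c' l := ha.2 _ (mem_pp.2 fun k => hcc k l)
  have h3 := polar_map ha.1 (c' l) v
  rw [h1] at h3
  rw [h3]
  exact mem_pp.1 hv l

/-- `PW (pp c)` and `PW (pp c')` commute if `c ⊥ c'` -/
theorem pp_comm {κ κ' : Type*} [Fintype κ] [DecidableEq κ] {c : κ → V} {c' : κ' → V} (h2 : (2 : F) ≠ 0)
    (hc : ∀ k, Q (c k) ≠ 0) (ho : ∀ k l, k ≠ l → polar Q (c k) (c l) = 0) (hcc : ∀ k l, polar Q (c k) (c' l) = 0)
    {a b : V ≃ₗ[F] V} (ha : a ∈ PW Q (pp Q c)) (hb : b ∈ PW Q (pp Q c')) : a * b = b * a := by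
  refine PW_comm ?_ ha hb (fun v hv => pp_stable hcc ha hv)
    (fun v hv => pp_stable (fun k l => by rw [polar_comm]; exact hcc l k) hb hv)
  rw [eq_top_iff]
  intro v _
  obtain ⟨z, hz⟩ : ∃ z, z = ∑ k, ((2 * Q (c k))⁻¹ * polar Q (c k) v) • c k := ⟨_, rfl⟩
  have h1 : z ∈ pp Q c' := by
    rw [hz]
    refine Submodule.sum_mem _ fun k _ => Submodule.smul_mem _ _ (mem_pp.2 fun l => ?_)
    rw [polar_comm]
    exact hcc k l
  have h3 : v - z ∈ pp Q c := by
    rw [mem_pp]
    intro k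
    have h4 : polar Q (c k) z = polar Q (c k) v := by
      have h5 : ∀ y, polar Q (c k) y = polarBilin Q (c k) y := fun y => rfl
      rw [h5, hz, map_sum, Finset.sum_eq_single k]
      · rw [map_smul, ← h5, polar_self', smul_eq_mul]
        have hk := hc k
        field_simp
      · intro l _ hl
        rw [map_smul, ← h5, ho k l (Ne.symm hl), smul_zero]
      · intro h6
        exact absurd (Finset.mem_univ _) h6
    rw [polar_sub_right, h4, sub_self]
  have h6 : v = (v - z) + z := by abel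
  rw [h6]
  exact Submodule.add_mem_sup h3 h1

/-- a Siegel transformation is a product of two reflections -/
theorem siegel_eq_refl {u w : V} (hu : Q u = 0) (hw : polar Q u w = 0) (h0 : Q w ≠ 0) (h1 : Q (w - Q w • u) ≠ 0) :
    siegel Q u w hu hw = refl Q (w - Q w • u) h1 * refl Q w h0 := by
  have hwu : polar Q w u = 0 := by rw [polar_comm]; exact hw
  have e : Q (w - Q w • u) = Q w := by
    rw [sub_eq_add_neg, Q_add, QuadraticMap.map_neg, QuadraticMap.map_smul, hu, polar_neg_right, polar_smul_right, hwu]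
    simp
  ext x
  show _ = refl Q (w - Q w • u) h1 (refl Q w h0 x)
  rw [siegel_apply, refl_apply, refl_apply, e]
  simp only [polar_sub_right, polar_sub_left, polar_smul_left, polar_smul_right, polar_self', smul_eq_mul, hw]
  match_scalars <;> field_simp <;> ring

/-- short root elements are commutators -/
theorem siegel_mem_Om {X : Submodule F V} {u w : V} (h2 : (2 : F) ≠ 0) (hu : Q u = 0) (hw : polar Q u w = 0) (h0 : Q w ≠ 0)
    (hX : ∀ x ∈ X, polar Q u x = 0 ∧ polar Q w x = 0) (c : F) (hc : polar Q u (c • w) = 0) :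
    siegel Q u (c • w) hu hc ∈ Om Q X := by
  by_cases hc0 : c = 0
  · subst hc0
    have h1 : siegel Q u ((0 : F) • w) hu hc = 1 := by
      have h3 : polar Q u (0 : V) = 0 := polar_zero_right _ _
      rw [siegel_congr rfl (zero_smul F w) hu hc hu h3, siegel_zero_right]
    rw [h1]
    exact (Om Q X).one_mem
  obtain ⟨w', hw'⟩ : ∃ w', w' = (c / 2) • w := ⟨_, rfl⟩
  have h3 : polar Q u w' = 0 := by rw [hw', polar_smul_right, hw, smul_zero]
  have hwu : polar Q w' u = 0 := by rw [polar_comm]; exact h3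
  have h4 : Q w' ≠ 0 := by
    rw [hw', QuadraticMap.map_smul, smul_eq_mul]
    exact mul_ne_zero (mul_ne_zero (div_ne_zero hc0 h2) (div_ne_zero hc0 h2)) h0
  have e : Q (w' - Q w' • u) = Q w' := by
    rw [sub_eq_add_neg, Q_add, QuadraticMap.map_neg, QuadraticMap.map_smul, hu, polar_neg_right, polar_smul_right, hwu]
    simp
  have h5 : Q (w' - Q w' • u) ≠ 0 := by rw [e]; exact h4
  have h6 : w' + w' = c • w := by
    rw [hw', ← add_smul]
    congr 1
    field_simp
    ring
  have h7 : polar Q u (w' + w') = 0 := by rw [h6]; exact hc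
  have h8 : siegel Q u (c • w) hu hc = siegel Q u w' hu h3 * siegel Q u w' hu h3 := by
    rw [siegel_mul hu h3 h3 h7]
    exact siegel_congr rfl h6.symm _ _ _ _
  have m1 : refl Q (w' - Q w' • u) h5 ∈ PW Q X := refl_mem_PW h5 fun x hx => by
    rw [hw', polar_sub_left, polar_smul_left, polar_smul_left, (hX x hx).1, (hX x hx).2]
    simp
  have m2 : refl Q w' h4 ∈ PW Q X := refl_mem_PW h4 fun x hx => by
    rw [hw', polar_smul_left, (hX x hx).2, smul_zero]
  have h9 := comm_mem m1 m2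
  rw [refl_inv, refl_inv] at h9
  rw [h8, siegel_eq_refl hu h3 h4 h5, ← mul_assoc]
  exact h9

end Cfsg.Agent.H466.O8R
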