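import Cfsg.Agent.H466.O8R.PP
import Cfsg.Agent.H36.Om7.Defs

/-!
# S3691, `PΩ⁺₈(q)`, DATA-OM: `gen_top` (helper466)
-/

set_option autoImplicit false

namespace Cfsg.Agent.H466.O8R

open Module QuadraticMap Cfsg.Agent.LieClassical.OrthCore Cfsg.Agent.LieClassical.OrthTrans Cfsg.Agent.H883.Sub
open Cfsg.Agent.H36.Om7

variable {F V : Type*} [Field F] [AddCommGroup V] [Module F V] {Q : QuadraticForm F V}

theorem OY_eq (Y : Submodule F V) : OY Q Y = PW Q (perp Q Y) := rfl

theorem DY_eq (Y : Submodule F V) : DY Q Y = Om Q (perp Q Y) := rfl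

/-- the frame of the short roots -/
theorem shortFrame_of_fr {u v : Fin 3 → V} {w : V} (fr : Fr Q u v w) : ShortFrame Q (Sum.elim u v) Sum.swap w where
  inv j := Sum.swap_swap j
  ne j := by rcases j with j | j <;> simp [Sum.swap]
  sing j := by
    rcases j with j | j
    · exact fr.u0 j
    · exact fr.v0 j
  pair j := by
    rcases j with j | j
    · show polar Q (u j) (v j) = 1
      rw [fr.uv, if_pos rfl]
    · show polar Q (v j) (u j) = 1
      rw [polar_comm, fr.uv, if_pos rfl]
  perp j k h := by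
    rcases j with j | j <;> rcases k with k | k
    · exact fr.uu j k
    · show polar Q (u j) (v k) = 0
      rw [fr.uv, if_neg]
      rintro rfl
      exact h rfl
    · show polar Q (v j) (u k) = 0
      rw [polar_comm, fr.uv, if_neg]
      rintro rfl
      exact h rfl
    · exact fr.vv j k
  pw j := by
    rcases j with j | j
    · exact fr.uw j
    · exact fr.vw j
  w0 := by rw [fr.w1]; exact one_ne_zero
  span x hx := by
    have h1 : x ∈ Submodule.span F (Set.range u ∪ Set.range v ∪ {w}) := by rw [fr.span]; exact Submodule.mem_top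
    rw [Submodule.span_union, Submodule.span_union, Submodule.mem_sup] at h1
    obtain ⟨y, hy, z, hz, rfl⟩ := h1
    obtain ⟨y1, hy1, y2, hy2, rfl⟩ := Submodule.mem_sup.1 hy
    obtain ⟨c, rfl⟩ := (Submodule.mem_span_range_iff_exists_fun F).1 hy1
    obtain ⟨d, rfl⟩ := (Submodule.mem_span_range_iff_exists_fun F).1 hy2
    obtain ⟨t, rfl⟩ := Submodule.mem_span_singleton.1 hz
    have hb : ∀ a b, polar Q a b = polarBilin Q a b := fun a b => rfl
    have hc : ∀ i, c i = 0 := by
      intro i
      have h2 := hx (Sum.inr i)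
      have h3 : polar Q (v i) (∑ i, c i • u i + ∑ i, d i • v i + t • w) = c i := by
        rw [hb, map_add, map_add, map_sum, map_sum, map_smul]
        simp only [map_smul, smul_eq_mul]
        simp only [← hb, fr.vv, fr.vw, mul_zero, Finset.sum_const_zero, add_zero]
        rw [Finset.sum_eq_single i]
        · rw [polar_comm, fr.uv, if_pos rfl, mul_one]
        · intro j _ hj
          rw [polar_comm, fr.uv, if_neg hj, mul_zero]
        · intro h
          exact absurd (Finset.mem_univ _) h
      rw [← h3]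
      exact h2
    have hd : ∀ i, d i = 0 := by
      intro i
      have h2 := hx (Sum.inl i)
      have h3 : polar Q (u i) (∑ i, c i • u i + ∑ i, d i • v i + t • w) = d i := by
        rw [hb, map_add, map_add, map_sum, map_sum, map_smul]
        simp only [map_smul, smul_eq_mul]
        simp only [← hb, fr.uu, fr.uw, mul_zero, Finset.sum_const_zero, add_zero, zero_add]
        rw [Finset.sum_eq_single i]
        · rw [fr.uv, if_pos rfl, mul_one]
        · intro j _ hj
          rw [fr.uv, if_neg (Ne.symm hj), mul_zero]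
        · intro h
          exact absurd (Finset.mem_univ _) h
      rw [← h3]
      exact h2
    refine ⟨t, ?_⟩
    simp [hc, hd]

/-- **(OM-TOP)** -/
theorem gen_top (h2 : (2 : F) ≠ 0) {u v : Fin 3 → V} {w : V} (fr : Fr Q u v w) (H : Subgroup (V ≃ₗ[F] V))
    (hH : ∀ i, DY Q (Submodule.span F {u i, v i, w}) ≤ H) : E Q ≤ H := by
  have hw : Q w ≠ 0 := by rw [fr.w1]; exact one_ne_zero
  refine (shortFrame_of_fr fr).top h2 fun j c hc => ?_
  rcases j with j | j
  · refine hH j ?_
    rw [DY_eq]
    refine siegel_mem_Om h2 (fr.u0 j) (fr.uw j) hw (fun x hx => ⟨?_, ?_⟩) c hc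
    · exact mem_perp.1 hx _ (Submodule.subset_span (by simp))
    · exact mem_perp.1 hx _ (Submodule.subset_span (by simp))
  · refine hH j ?_
    rw [DY_eq]
    refine siegel_mem_Om h2 (fr.v0 j) (fr.vw j) hw (fun x hx => ⟨?_, ?_⟩) c hc
    · exact mem_perp.1 hx _ (Submodule.subset_span (by simp))
    · exact mem_perp.1 hx _ (Submodule.subset_span (by simp))

/-- link elements -/
theorem exists_link_DY [Finite F] (h2 : (2 : F) ≠ 0) (hF : 6 ≤ Nat.card F) {a b : V} (ha : Q a ≠ 0) (hb : Q b ≠ 0)
    (hab : polar Q a b = 0) :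
    ∃ x : V ≃ₗ[F] V, x ^ 2 ≠ 1 ∧ ∀ Y : Submodule F V, a ∈ Y → b ∈ Y → x ∈ DY Q Y := by
  obtain ⟨x, hx, h⟩ := exists_link h2 hF ha hb hab
  exact ⟨x, hx, fun Y haY hbY => h _ fun v hv => ⟨mem_perp.1 hv a haY, mem_perp.1 hv b hbY⟩⟩

end Cfsg.Agent.H466.O8R
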