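import Cfsg.Agent.LieClassical.OrthCore

/-!
# S3691, `PΩ⁺₈(q)`, DATA-OM: definitions (helper466)

`PW Q X` : the isometries fixing the subspace `X` pointwise; `Om Q X = ⁅PW Q X, PW Q X⁆`.
-/

set_option autoImplicit false

namespace Cfsg.Agent.H466.O8R

open QuadraticMap
open Cfsg.Agent.LieClassical.OrthCore

variable {F V : Type*} [Field F] [AddCommGroup V] [Module F V]

/-- the isometries fixing `X` pointwise -/
def PW (Q : QuadraticForm F V) (X : Submodule F V) : Subgroup (V ≃ₗ[F] V) where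
  carrier := {g | g ∈ O Q ∧ ∀ x ∈ X, g x = x}
  mul_mem' {a b} ha hb := ⟨(O Q).mul_mem ha.1 hb.1, fun x hx => by
    show a (b x) = x
    rw [hb.2 x hx, ha.2 x hx]⟩
  one_mem' := ⟨(O Q).one_mem, fun x _ => rfl⟩
  inv_mem' {a} ha := ⟨(O Q).inv_mem ha.1, fun x hx => by
    have h := ha.2 x hx
    conv_lhs => rw [← h]
    exact LinearEquiv.symm_apply_apply a x⟩

/-- the commutator subgroup of `PW Q X` -/
def Om (Q : QuadraticForm F V) (X : Submodule F V) : Subgroup (V ≃ₗ[F] V) := ⁅PW Q X, PW Q X⁆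

variable {Q : QuadraticForm F V} {X Y : Submodule F V} {g : V ≃ₗ[F] V}

theorem mem_PW : g ∈ PW Q X ↔ g ∈ O Q ∧ ∀ x ∈ X, g x = x := Iff.rfl

theorem PW_le_O : PW Q X ≤ O Q := fun _ h => h.1

theorem PW_anti (h : X ≤ Y) : PW Q Y ≤ PW Q X := fun _ hg => ⟨hg.1, fun x hx => hg.2 x (h hx)⟩

theorem Om_le_PW : Om Q X ≤ PW Q X := by
  rw [Om, Subgroup.commutator_le]
  intro a ha b hb
  exact (PW Q X).mul_mem ((PW Q X).mul_mem ((PW Q X).mul_mem ha hb) ((PW Q X).inv_mem ha)) ((PW Q X).inv_mem hb)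

theorem Om_anti (h : X ≤ Y) : Om Q Y ≤ Om Q X := Subgroup.commutator_mono (PW_anti h) (PW_anti h)

theorem Om_bot : Om Q ⊥ = ⁅O Q, O Q⁆ := by
  have h : PW Q ⊥ = O Q := le_antisymm PW_le_O fun g hg => ⟨hg, fun x hx => by
    rw [(Submodule.mem_bot F).1 hx, map_zero]⟩
  rw [Om, h]

theorem Om_le : Om Q X ≤ ⁅O Q, O Q⁆ := Subgroup.commutator_mono PW_le_O PW_le_O

theorem map_PW (hg : g ∈ O Q) :
    (PW Q X).map (MulAut.conj g).toMonoidHom = PW Q (X.map (g : V →ₗ[F] V)) := by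
  ext y
  constructor
  · rintro ⟨x, hx, rfl⟩
    refine ⟨(O Q).mul_mem ((O Q).mul_mem hg hx.1) ((O Q).inv_mem hg), ?_⟩
    rintro _ ⟨v, hv, rfl⟩
    show g (x (g.symm (g v))) = g v
    rw [LinearEquiv.symm_apply_apply, hx.2 v hv]
  · rintro ⟨hy, hyX⟩
    refine ⟨g⁻¹ * y * g, ⟨(O Q).mul_mem ((O Q).mul_mem ((O Q).inv_mem hg) hy) hg, fun v hv => ?_⟩, ?_⟩
    · show g.symm (y (g v)) = v
      rw [hyX (g v) ⟨v, hv, rfl⟩, LinearEquiv.symm_apply_apply]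
    · show g * (g⁻¹ * y * g) * g⁻¹ = y
      group

theorem map_Om (hg : g ∈ O Q) :
    (Om Q X).map (MulAut.conj g).toMonoidHom = Om Q (X.map (g : V →ₗ[F] V)) := by
  rw [Om, Subgroup.map_commutator, map_PW hg, Om]

/-- `F6` -/
theorem PW_comm (hXY : X ⊔ Y = ⊤) {a b : V ≃ₗ[F] V} (ha : a ∈ PW Q X) (hb : b ∈ PW Q Y)
    (haY : ∀ y ∈ Y, a y ∈ Y) (hbX : ∀ x ∈ X, b x ∈ X) : a * b = b * a := by
  ext v
  obtain ⟨x, hx, y, hy, rfl⟩ := Submodule.mem_sup.1 (show v ∈ X ⊔ Y by rw [hXY]; exact Submodule.mem_top)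
  show a (b (x + y)) = b (a (x + y))
  rw [map_add, map_add, map_add, map_add, hb.2 y hy, ha.2 x hx, ha.2 _ (hbX x hx), hb.2 _ (haY y hy)]

/-- the commutator of two elements of `PW` -/
theorem comm_mem {a b : V ≃ₗ[F] V} (ha : a ∈ PW Q X) (hb : b ∈ PW Q X) : a * b * a⁻¹ * b⁻¹ ∈ Om Q X :=
  Subgroup.commutator_mem_commutator ha hb

end Cfsg.Agent.H466.O8R
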